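import Cfsg.Agent.H462.NoProd.Rep

/-!
# Lifting direct products through the centre (for S3679) (helper462)

* `lift_pair` : `φ : S × S →* G ⧸ Z(G)` injective, `S` perfect: there are commuting perfect non-central subgroups of `G`;
* `no_pair` : this is impossible if `G` has a representation of degree at most `3` with central kernel.
-/

set_option autoImplicit false

namespace Cfsg.Agent.H462.NoProd

open Module Subgroup
open scoped commutatorElement

universe u

section lift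

variable {G : Type*} [Group G]

theorem comm_central {x y z w : G} (hz : z ∈ center G) (hw : w ∈ center G) : ⁅x * z, y * w⁆ = ⁅x, y⁆ := by
  have hz' := fun g => (mem_center_iff.1 hz g)
  have hw' := fun g => (mem_center_iff.1 hw g)
  rw [commutatorElement_def, commutatorElement_def, mul_inv_rev, mul_inv_rev]
  calc x * z * (y * w) * (z⁻¹ * x⁻¹) * (w⁻¹ * y⁻¹) = x * (z * (y * w)) * (z⁻¹ * x⁻¹) * (w⁻¹ * y⁻¹) := by group
    _ = x * ((y * w) * z) * (z⁻¹ * x⁻¹) * (w⁻¹ * y⁻¹) := by rw [hz' (y * w)]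
    _ = x * y * (w * x⁻¹) * (w⁻¹ * y⁻¹) := by group
    _ = x * y * (x⁻¹ * w) * (w⁻¹ * y⁻¹) := by rw [hw' x⁻¹]
    _ = x * y * x⁻¹ * y⁻¹ := by group

/-- the lift of a perfect subgroup of `G ⧸ Z(G)` -/
def lft {S : Type*} [Group S] (ψ : S →* G ⧸ center G) : Subgroup G := ψ.range.comap (QuotientGroup.mk' (center G))

theorem lft_map {S : Type*} [Group S] (ψ : S →* G ⧸ center G) :
    (lft ψ).map (QuotientGroup.mk' (center G)) = ψ.range :=
  map_comap_eq_self_of_surjective (QuotientGroup.mk'_surjective _) _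

theorem lft_comm_map {S : Type*} [Group S] (hp : commutator S = ⊤) (ψ : S →* G ⧸ center G) :
    (⁅lft ψ, lft ψ⁆ : Subgroup G).map (QuotientGroup.mk' (center G)) = ψ.range := by
  rw [map_commutator, lft_map, MonoidHom.range_eq_map, ← map_commutator, ← commutator_def, hp]

theorem lft_perfect {S : Type*} [Group S] (hp : commutator S = ⊤) (ψ : S →* G ⧸ center G) :
    commutator (⁅lft ψ, lft ψ⁆ : Subgroup G) = ⊤ := by
  have h1 : ∀ x ∈ lft ψ, ∃ d ∈ (⁅lft ψ, lft ψ⁆ : Subgroup G), ∃ z ∈ center G, x = d * z := by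
    intro x hx
    have h2 : QuotientGroup.mk' (center G) x ∈ (⁅lft ψ, lft ψ⁆ : Subgroup G).map (QuotientGroup.mk' (center G)) := by
      rw [lft_comm_map hp]
      exact hx
    obtain ⟨d, hd, hdx⟩ := h2
    refine ⟨d, hd, d⁻¹ * x, ?_, by group⟩
    exact QuotientGroup.eq.1 hdx
  have h2 : (⁅lft ψ, lft ψ⁆ : Subgroup G) ≤ ⁅(⁅lft ψ, lft ψ⁆ : Subgroup G), (⁅lft ψ, lft ψ⁆ : Subgroup G)⁆ := by
    rw [commutator_le]
    intro x hx y hy
    obtain ⟨d, hd, z, hz, rfl⟩ := h1 x hx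
    obtain ⟨d', hd', z', hz', rfl⟩ := h1 y hy
    rw [comm_central hz hz']
    exact commutator_mem_commutator hd hd'
  generalize (⁅lft ψ, lft ψ⁆ : Subgroup G) = D at h2
  rw [← map_subtype_commutator] at h2
  rw [eq_top_iff]
  rintro ⟨x, hx⟩ -
  obtain ⟨y, hy, hyx⟩ := h2 hx
  have h3 : y = ⟨x, hx⟩ := Subtype.ext hyx
  rw [← h3]
  exact hy

/-- **Commuting lifts.** -/
theorem lift_pair {S : Type*} [Group S] [Nontrivial S] (hp : commutator S = ⊤) (φ : S × S →* G ⧸ center G)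
    (hφ : Function.Injective φ) : ∃ G₁ G₂ : Subgroup G, commutator G₁ = ⊤ ∧ commutator G₂ = ⊤ ∧
      (∀ a ∈ G₁, ∀ b ∈ G₂, a * b = b * a) ∧ ¬ G₁ ≤ center G ∧ ¬ G₂ ≤ center G := by
  let ψ₁ : S →* G ⧸ center G := φ.comp (MonoidHom.inl S S)
  let ψ₂ : S →* G ⧸ center G := φ.comp (MonoidHom.inr S S)
  have i₁ : Function.Injective ψ₁ := fun a b hab => congrArg Prod.fst (hφ hab)
  have i₂ : Function.Injective ψ₂ := fun a b hab => congrArg Prod.snd (hφ hab)
  have key : ∀ ψ : S →* G ⧸ center G, Function.Injective ψ → ¬ (⁅lft ψ, lft ψ⁆ : Subgroup G) ≤ center G := by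
    intro ψ hψ hle
    have h1 := lft_comm_map hp ψ
    have h2 : (⁅lft ψ, lft ψ⁆ : Subgroup G).map (QuotientGroup.mk' (center G)) = ⊥ := by
      rw [Subgroup.map_eq_bot_iff, QuotientGroup.ker_mk']
      exact hle
    rw [h2] at h1
    obtain ⟨s, hs⟩ := exists_ne (1 : S)
    apply hs
    apply hψ
    rw [map_one]
    have h3 : ψ s ∈ ψ.range := ⟨s, rfl⟩
    rw [← h1, mem_bot] at h3
    exact h3
  refine ⟨⁅lft ψ₁, lft ψ₁⁆, ⁅lft ψ₂, lft ψ₂⁆, lft_perfect hp _, lft_perfect hp _, ?_, key _ i₁, key _ i₂⟩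
  -- elements of the two lifts commute modulo the centre
  have hZ : ∀ y ∈ lft ψ₂, ∀ x ∈ lft ψ₁, ∃ z ∈ center G, y * x * y⁻¹ = x * z := by
    intro y hy x hx
    obtain ⟨t, ht⟩ := hy
    obtain ⟨s, hs⟩ := hx
    have hs' : φ (s, 1) = QuotientGroup.mk' (center G) x := hs
    have ht' : φ (1, t) = QuotientGroup.mk' (center G) y := ht
    have h1 : QuotientGroup.mk' (center G) (y * x) = QuotientGroup.mk' (center G) (x * y) := by
      rw [map_mul, map_mul, ← hs', ← ht', ← map_mul, ← map_mul]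
      congr 1
      ext <;> simp
    refine ⟨x⁻¹ * (y * x * y⁻¹), ?_, by group⟩
    rw [← QuotientGroup.ker_mk' (center G), MonoidHom.mem_ker, map_mul, map_mul _ (y * x), h1, map_mul, map_inv, map_inv]
    group
  have h1 : (⁅lft ψ₁, lft ψ₁⁆ : Subgroup G) ≤ centralizer (lft ψ₂ : Set G) := by
    rw [commutator_le]
    intro x hx x' hx'
    rw [mem_centralizer_iff]
    intro y hy
    obtain ⟨z, hz, e1⟩ := hZ y hy x hx
    obtain ⟨z', hz', e2⟩ := hZ y hy x' hx'
    have h2 : y * ⁅x, x'⁆ * y⁻¹ = ⁅y * x * y⁻¹, y * x' * y⁻¹⁆ := by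
      rw [commutatorElement_def, commutatorElement_def]; group
    rw [e1, e2, comm_central hz hz', mul_inv_eq_iff_eq_mul] at h2
    exact h2
  intro a ha b hb
  have h2 : b ∈ lft ψ₂ := by
    have h3 : (⁅lft ψ₂, lft ψ₂⁆ : Subgroup G) ≤ lft ψ₂ := by
      rw [commutator_le]
      intro x hx y hy
      rw [commutatorElement_def]
      exact (lft ψ₂).mul_mem ((lft ψ₂).mul_mem ((lft ψ₂).mul_mem hx hy) ((lft ψ₂).inv_mem hx)) ((lft ψ₂).inv_mem hy)
    exact h3 hb
  exact (mem_centralizer_iff.1 (h1 ha) b h2).symm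

/-- **Representations of degree at most three.** -/
theorem no_pair {K : Type u} [Field K] [IsAlgClosed K] {W : Type u} [AddCommGroup W] [Module K W]
    [FiniteDimensional K W] (hW : finrank K W ≤ 3) (ρ : G →* Module.End K W) (hρ : ∀ g, ρ g = 1 → g ∈ center G)
    {S : Type*} [Group S] [Nontrivial S] (hp : commutator S = ⊤) (φ : S × S →* G ⧸ center G) :
    ¬ Function.Injective φ := by
  intro hφ
  obtain ⟨G₁, G₂, p₁, p₂, hc, n₁, n₂⟩ := lift_pair hp φ hφ
  rcases pair p₁ p₂ (low_one (F := K) p₁) (low_one (F := K) p₂) _ W rfl (by omega) (ρ.comp G₁.subtype)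
    (ρ.comp G₂.subtype) (fun a b => by
      change ρ a * ρ b = ρ b * ρ a
      rw [← map_mul, hc a a.2 b b.2, map_mul]) with h | h
  · exact n₁ fun g hg => hρ g (h ⟨g, hg⟩)
  · exact n₂ fun g hg => hρ g (h ⟨g, hg⟩)

end lift

end Cfsg.Agent.H462.NoProd
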