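import Cfsg.Agent.H462.NoProd.Lift
import Cfsg.Agent.H462.NoProd.Low
import Cfsg.Prelude.Def_Classical

/-!
# `PSL_n(q)`, `PSU_n(q)`, `n ≤ 3`, have no subgroups `S × S` (for S3679) (helper462)
-/

set_option autoImplicit false

namespace Cfsg.Agent.H462.NoProd

open Module Subgroup

set_option linter.dupNamespace false in
/-- no subgroup `S × S`, `S` simple non-abelian -/
def NoProd (T : Type*) [Group T] : Prop :=
  ∀ (S : Type) [Group S] [Finite S], IsSimpleGroup S → (¬ IsMulCommutative S) → ∀ φ : S × S →* T,
    ¬ Function.Injective φ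

set_option linter.dupNamespace false in
theorem NoProd.congr {T T' : Type*} [Group T] [Group T'] (e : T' ≃* T) (h : NoProd T) : NoProd T' :=
  fun S _ _ hS hna φ hφ => h S hS hna (e.toMonoidHom.comp φ) (e.injective.comp hφ)

/-- the natural representation of matrices over the algebraic closure -/
noncomputable def nat (n : ℕ) (F : Type) [Field F] :
    Matrix (Fin n) (Fin n) F →* Module.End (AlgebraicClosure F) (Fin n → AlgebraicClosure F) :=
  (Matrix.toLinAlgEquiv' : Matrix (Fin n) (Fin n) (AlgebraicClosure F) ≃ₐ[AlgebraicClosure F] _).toMulEquiv.toMonoidHom.comp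
    ((algebraMap F (AlgebraicClosure F)).mapMatrix : Matrix (Fin n) (Fin n) F →+* _).toMonoidHom

theorem nat_injective (n : ℕ) (F : Type) [Field F] : Function.Injective (nat n F) := by
  refine (Matrix.toLinAlgEquiv' : Matrix (Fin n) (Fin n) (AlgebraicClosure F) ≃ₐ[AlgebraicClosure F] _).injective.comp ?_
  intro A B h
  ext i j
  have h1 := congrFun (congrFun h i) j
  exact (algebraMap F (AlgebraicClosure F)).injective h1

theorem noProd_of_mat {G : Type*} [Group G] {F : Type} [Field F] {n : ℕ} (hn : n ≤ 3)
    (τ : G →* Matrix (Fin n) (Fin n) F) (hτ : Function.Injective τ) : NoProd (G ⧸ center G) := by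
  intro S _ _ hS hna φ
  have hnt : Nontrivial S := hS.toNontrivial
  refine no_pair (K := AlgebraicClosure F) (W := Fin n → AlgebraicClosure F) (by
    rw [Module.finrank_fin_fun]; exact hn) ((nat n F).comp τ) (fun g hg => ?_) (perfect_of_simple hS hna) φ
  have h1 : g = 1 := by
    apply hτ
    apply nat_injective n F
    rw [map_one, map_one]
    exact hg
  rw [h1]
  exact one_mem _

theorem noProd_psl {F : Type} [Field F] {n : ℕ} (hn : n ≤ 3) :
    NoProd (Matrix.ProjectiveSpecialLinearGroup (Fin n) F) :=
  noProd_of_mat hn (slToMat n F) (fun _ _ h => Subtype.ext h)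

theorem noProd_psu {F : Type} [Field F] {n q : ℕ} (hn : n ≤ 3) : NoProd (PSU n F q) :=
  noProd_of_mat hn ((slToMat n F).comp (SU n F q).subtype) (fun _ _ h => Subtype.ext (Subtype.ext h))

end Cfsg.Agent.H462.NoProd
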