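import Mathlib

/-!
# Commuting perfect groups of matrices of small degree (for S3679) (helper462)

`Low F k G` : every representation of `G` over `F` of degree at most `k` is trivial.
`pair` : `F` algebraically closed, `G₁`, `G₂` perfect with `Low F k`, `k ≥ 1`; two commuting representations of `G₁`, `G₂` on a
space of dimension at most `2 k + 1`: one of them is trivial.
-/

set_option autoImplicit false

namespace Cfsg.Agent.H462.NoProd

open Module

universe u

section triv

variable {G : Type*} [Group G]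

/-- a perfect group with a commutative image acts trivially -/
theorem triv_of_comm {M : Type*} [Monoid M] (hp : commutator G = ⊤) (ρ : G →* M) (h : ∀ a b, ρ a * ρ b = ρ b * ρ a)
    (g : G) : ρ g = 1 := by
  have h1 : commutator G ≤ ρ.ker := by
    rw [commutator_def, Subgroup.commutator_le]
    intro a _ b _
    rw [MonoidHom.mem_ker, commutatorElement_def, map_mul, map_mul, map_mul, h a b, ← map_mul, ← map_mul, ← map_mul]
    have h2 : b * a * a⁻¹ * b⁻¹ = 1 := by group
    rw [h2, map_one]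
  rw [hp] at h1
  exact h1 (Subgroup.mem_top g)

end triv

section rep

variable {F : Type u} [Field F] {G : Type*} [Group G] {W : Type u} [AddCommGroup W] [Module F W]

/-- trivial on a submodule and on the quotient -/
theorem triv_of_two (hp : commutator G = ⊤) (ρ : G →* Module.End F W) (U : Submodule F W)
    (h1 : ∀ g, ∀ u ∈ U, ρ g u = u) (h2 : ∀ g w, ρ g w - w ∈ U) (g : G) : ρ g = 1 := by
  refine triv_of_comm hp ρ (fun a b => ?_) g
  have key : ∀ a b w, ρ a (ρ b w) = (ρ a w - w) + (ρ b w - w) + w := by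
    intro a b w
    have h3 : ρ b w = w + (ρ b w - w) := by abel
    rw [h3, map_add, h1 a _ (h2 b w)]
    abel
  ext w
  change ρ a (ρ b w) = ρ b (ρ a w)
  rw [key, key]
  abel

/-- restriction -/
def res (ρ : G →* Module.End F W) (U : Submodule F W) (h : ∀ g, ∀ u ∈ U, ρ g u ∈ U) : G →* Module.End F U where
  toFun g := (ρ g).restrict (h g)
  map_one' := by
    ext u
    rw [LinearMap.coe_restrict_apply, map_one]
    rfl
  map_mul' a b := by
    ext u
    rw [LinearMap.coe_restrict_apply, map_mul]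
    rfl

theorem res_apply (ρ : G →* Module.End F W) (U : Submodule F W) (h : ∀ g, ∀ u ∈ U, ρ g u ∈ U) (g : G) (u : U) :
    ((res ρ U h g u : U) : W) = ρ g u := rfl

/-- quotient -/
def quo (ρ : G →* Module.End F W) (U : Submodule F W) (h : ∀ g, ∀ u ∈ U, ρ g u ∈ U) :
    G →* Module.End F (W ⧸ U) where
  toFun g := U.mapQ U (ρ g) (h g)
  map_one' := by
    ext w
    simp
  map_mul' a b := by
    ext w
    simp

theorem quo_apply (ρ : G →* Module.End F W) (U : Submodule F W) (h : ∀ g, ∀ u ∈ U, ρ g u ∈ U) (g : G) (w : W) :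
    quo ρ U h g (U.mkQ w) = U.mkQ (ρ g w) := rfl

theorem res_triv {ρ : G →* Module.End F W} {U : Submodule F W} {h : ∀ g, ∀ u ∈ U, ρ g u ∈ U}
    (h1 : ∀ g, res ρ U h g = 1) (g : G) (u : W) (hu : u ∈ U) : ρ g u = u := by
  have h2 := congrArg (fun f : Module.End F U => ((f ⟨u, hu⟩ : U) : W)) (h1 g)
  exact h2

theorem quo_triv {ρ : G →* Module.End F W} {U : Submodule F W} {h : ∀ g, ∀ u ∈ U, ρ g u ∈ U}
    (h1 : ∀ g, quo ρ U h g = 1) (g : G) (w : W) : ρ g w - w ∈ U := by
  have h2 := congrArg (fun f : Module.End F (W ⧸ U) => f (U.mkQ w)) (h1 g)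
  have h3 : U.mkQ (ρ g w) = U.mkQ w := h2
  rw [← Submodule.ker_mkQ U, LinearMap.mem_ker, map_sub, h3, sub_self]

end rep

/-- all representations of degree at most `k` are trivial -/
def Low (F : Type u) [Field F] (k : ℕ) (G : Type*) [Group G] : Prop :=
  ∀ (W : Type u) [AddCommGroup W] [Module F W] [FiniteDimensional F W], finrank F W ≤ k →
    ∀ (ρ : G →* Module.End F W) (g : G), ρ g = 1

/-- **Commuting representations of small degree.** -/
theorem pair {F : Type u} [Field F] [IsAlgClosed F] {k : ℕ} {G₁ G₂ : Type*} [Group G₁] [Group G₂]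
    (p₁ : commutator G₁ = ⊤) (p₂ : commutator G₂ = ⊤) (l₁ : Low F k G₁) (l₂ : Low F k G₂) (n : ℕ) :
    ∀ (W : Type u) [AddCommGroup W] [Module F W] [FiniteDimensional F W], finrank F W = n → n ≤ 2 * k + 1 →
      ∀ (ρ₁ : G₁ →* Module.End F W) (ρ₂ : G₂ →* Module.End F W), (∀ a b, ρ₁ a * ρ₂ b = ρ₂ b * ρ₁ a) →
        (∀ a, ρ₁ a = 1) ∨ ∀ b, ρ₂ b = 1 := by
  induction n using Nat.strong_induction_on with
  | _ n ih =>
    intro W _ _ _ hW hn ρ₁ ρ₂ hc
    by_contra hcon
    push Not at hcon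
    obtain ⟨⟨a₁, h₁⟩, ⟨a₂, h₂⟩⟩ := hcon
    have hcw : ∀ a b w, ρ₁ a (ρ₂ b w) = ρ₂ b (ρ₁ a w) := fun a b w => LinearMap.congr_fun (hc a b) w
    have hk : k < finrank F W := by
      by_contra hcon
      exact h₁ (l₁ W (by omega) ρ₁ a₁)
    have hnt : Nontrivial W := Module.nontrivial_of_finrank_pos (R := F) (by omega)
    -- a non-scalar element
    obtain ⟨s, hs⟩ : ∃ s, ∀ c : F, ρ₁ s ≠ algebraMap F (Module.End F W) c := by
      by_contra hcon
      push Not at hcon
      refine h₁ (triv_of_comm p₁ ρ₁ (fun a b => ?_) a₁)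
      obtain ⟨c, hc⟩ := hcon a
      rw [hc]
      exact Algebra.commutes c _
    obtain ⟨c, hc⟩ := Module.End.exists_eigenvalue (ρ₁ s)
    set E := (ρ₁ s).eigenspace c with hE
    have hE0 : E ≠ ⊥ := hc
    have hE1 : E ≠ ⊤ := by
      intro h
      apply hs c
      ext w
      have h3 : w ∈ E := by rw [h]; trivial
      rw [hE, Module.End.mem_eigenspace_iff] at h3
      rw [h3]
      rfl
    have hEinv : ∀ b, ∀ u ∈ E, ρ₂ b u ∈ E := by
      intro b u hu
      rw [hE, Module.End.mem_eigenspace_iff] at hu ⊢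
      rw [hcw, hu, map_smul]
    have hsumE := E.finrank_quotient_add_finrank
    by_cases hcase : finrank F E ≤ k
    · have hE2 : ∀ b, ∀ u ∈ E, ρ₂ b u = u := fun b u hu => res_triv (l₂ E hcase (res ρ₂ E hEinv)) b u hu
      let U : Submodule F W :=
        { carrier := {w | ∀ b, ρ₂ b w = w}
          add_mem' := fun {x y} hx hy b => by rw [map_add, hx b, hy b]
          zero_mem' := fun b => map_zero _
          smul_mem' := fun c x hx b => by rw [map_smul, hx b] }
      have hU : ∀ w, w ∈ U ↔ ∀ b, ρ₂ b w = w := fun w => Iff.rfl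
      have hU0 : U ≠ ⊥ := by
        intro h
        apply hE0
        rw [eq_bot_iff, ← h]
        intro u hu
        exact fun b => hE2 b u hu
      have i₁ : ∀ a, ∀ u ∈ U, ρ₁ a u ∈ U := by
        intro a u hu b
        rw [← hcw, hu b]
      have i₂ : ∀ b, ∀ u ∈ U, ρ₂ b u ∈ U := by
        intro b u hu
        rw [hu b]; exact hu
      have hsum := U.finrank_quotient_add_finrank
      have hq : k < finrank F (W ⧸ U) := by
        by_contra hcon
        have h3 := quo_triv (l₂ (W ⧸ U) (by omega) (quo ρ₂ U i₂))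
        exact h₂ (triv_of_two p₂ ρ₂ U (fun b u hu => hu b) h3 a₂)
      have h3 : ∀ a, ∀ u ∈ U, ρ₁ a u = u := fun a u hu => res_triv (l₁ U (by omega) (res ρ₁ U i₁)) a u hu
      have hpos : 0 < finrank F U := by
        rw [Module.finrank_pos_iff, Submodule.nontrivial_iff_ne_bot]
        exact hU0
      rcases ih (finrank F (W ⧸ U)) (by omega) (W ⧸ U) rfl (by omega) (quo ρ₁ U i₁) (quo ρ₂ U i₂) (fun a b => by
        ext w
        change U.mkQ (ρ₁ a (ρ₂ b w)) = U.mkQ (ρ₂ b (ρ₁ a w))
        rw [hcw]) with h4 | h4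
      · exact h₁ (triv_of_two p₁ ρ₁ U h3 (quo_triv h4) a₁)
      · exact h₂ (triv_of_two p₂ ρ₂ U (fun b u hu => hu b) (quo_triv h4) a₂)
    · have hE2 : ∀ b w, ρ₂ b w - w ∈ E := quo_triv (l₂ (W ⧸ E) (by omega) (quo ρ₂ E hEinv))
      let C : Submodule F W := Submodule.span F {x | ∃ b w, x = ρ₂ b w - w}
      have hC : ∀ b w, ρ₂ b w - w ∈ C := fun b w => Submodule.subset_span ⟨b, w, rfl⟩
      have hCE : C ≤ E := by
        rw [Submodule.span_le]
        rintro _ ⟨b, w, rfl⟩
        exact hE2 b w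
      have hC1 : C ≠ ⊤ := fun h => hE1 (eq_top_iff.2 (h ▸ hCE))
      have i₁ : ∀ a, ∀ u ∈ C, ρ₁ a u ∈ C := by
        intro a u hu
        have h3 : C ≤ C.comap (ρ₁ a) := by
          rw [Submodule.span_le]
          rintro _ ⟨b, w, rfl⟩
          change ρ₁ a (ρ₂ b w - w) ∈ C
          rw [map_sub, hcw]
          exact hC b _
        exact h3 hu
      have i₂ : ∀ b, ∀ u ∈ C, ρ₂ b u ∈ C := by
        intro b u hu
        have h3 : ρ₂ b u = (ρ₂ b u - u) + u := by abel
        rw [h3]
        exact C.add_mem (hC b u) hu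
      have hsum := C.finrank_quotient_add_finrank
      have hq : k < finrank F C := by
        by_contra hcon
        have h3 := res_triv (l₂ C (by omega) (res ρ₂ C i₂))
        exact h₂ (triv_of_two p₂ ρ₂ C h3 hC a₂)
      have h3 : ∀ a w, ρ₁ a w - w ∈ C := quo_triv (l₁ (W ⧸ C) (by omega) (quo ρ₁ C i₁))
      have hlt : finrank F C < finrank F W := Submodule.finrank_lt hC1
      rcases ih (finrank F C) (by omega) C rfl (by omega) (res ρ₁ C i₁) (res ρ₂ C i₂) (fun a b => by
        ext w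
        change ρ₁ a (ρ₂ b w) = ρ₂ b (ρ₁ a w)
        rw [hcw]) with h4 | h4
      · exact h₁ (triv_of_two p₁ ρ₁ C (res_triv h4) h3 a₁)
      · exact h₂ (triv_of_two p₂ ρ₂ C (res_triv h4) hC a₂)

/-! ### thresholds -/

/-- perfect groups act trivially in dimension one -/
theorem low_one {F : Type u} [Field F] {G : Type*} [Group G] (hp : commutator G = ⊤) : Low F 1 G := by
  intro W _ _ _ hW ρ g
  refine triv_of_comm hp ρ (fun a b => ?_) g
  obtain ⟨v, hv⟩ := finrank_le_one_iff.1 hW
  have key : ∀ f : Module.End F W, ∃ c : F, ∀ w, f w = c • w := by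
    intro f
    obtain ⟨c, hc⟩ := hv (f v)
    refine ⟨c, fun w => ?_⟩
    obtain ⟨d, rfl⟩ := hv w
    rw [map_smul, ← hc, smul_comm]
  obtain ⟨c, hc⟩ := key (ρ a)
  obtain ⟨d, hd⟩ := key (ρ b)
  ext w
  change ρ a (ρ b w) = ρ b (ρ a w)
  rw [hd w, hc w, hc, hd, smul_comm]

end Cfsg.Agent.H462.NoProd
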